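import Mathlib
import Cfsg.Agent.W4.Loc

/-! The normal form of a point with `|Q ∩ Q_t| = 32`. -/

set_option autoImplicit false
set_option maxRecDepth 100000
set_option linter.unusedSectionVars false
set_option linter.unusedVariables false

namespace Cfsg.Agent.W4

open Cfsg.Agent.Spor Cfsg.Agent.Spor.TT Cfsg.Agent.LX Cfsg.Agent.Gr6 Cfsg.Agent.W3 Subgroup

/-- The elements of the unipotent radical of the stabiliser of `e0` and `E0`. -/
def gb (w u v : V) : V := rho false (vv 1) w (v + cr u v)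

/-- A generator of a standard point: `n` is `32`, `64` or `128`. -/
def sg (b : Bool) (n k : ℕ) : ℕ := mat (gb (vv (Nat.add n (Nat.mul 2 k))) (sm b (vv n)))

/-- The standard points. -/
def stb (b : Bool) (c : ℕ) : PD :=
  ⟨1, E0, sg b 32 (Nat.mod c 8), sg b 64 (Nat.mod (Nat.div c 8) 8), sg b 128 (Nat.mod (Nat.div c 64) 8)⟩

theorem cr_add (u v w : V) : cr u (v + w) = cr u v + cr u w := by
  simp only [cr, bt_add, Bool.and_xor_distrib_left, sm_xor]; abel

theorem gb_add (w u a b : V) : gb w u (a + b) = gb w u a + gb w u b := by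
  simp only [gb, rho, cr_add, fb_add_left, Bool.and_xor_distrib_left, sm_xor]; abel

theorem mx_sg (b : Bool) (n k : ℕ) (v : V) : mx (sg b n k) v = gb (vv (n + 2 * k)) (sm b (vv n)) v := mx_mat (gb_add _ _) v

theorem E0_eq : ∀ e : V, bt E0 e.n = true → e = sm (fb (vv 16) e) (vv 1) + sm (fb (vv 32) e) (vv 2) +
    sm (fb (vv 64) e) (vv 4) + sm (fb (vv 128) e) (vv 8) := by decide +kernel

theorem E0_q : ∀ e : V, bt E0 e.n = true → qb false e = false := by decide +kernel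

theorem E0_of_perp : ∀ v : V, fb v (vv 1) = false → fb v (vv 2) = false → fb v (vv 4) = false → fb v (vv 8) = false →
    bt E0 v.n = true := by decide +kernel

theorem sub_E0 : Sub (vv 1) fun v => bt E0 v.n = true := by
  have k : ∀ v : V, bt E0 v.n = true ↔ v.n < 2 ^ 4 := by decide +kernel
  exact ⟨rfl, rfl, fun u v a b => (k _).2 (Nat.xor_lt_two_pow ((k u).1 a) ((k v).1 b))⟩

theorem E0_f {u v : V} (hu : bt E0 u.n = true) (hv : bt E0 v.n = true) : fb u v = false := by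
  have := E0_q _ (sub_E0.add _ _ hu hv)
  rwa [qb_add, E0_q _ hu, E0_q _ hv, Bool.false_xor, Bool.false_xor] at this

/-- The isometries that fix `e0` and are trivial on `e0 ^ ⊥ / E0`. -/
theorem eq_gb {T : V → V} (h : Iso false T) (h0 : T (vv 1) = vv 1)
    (hE : ∀ v, fb v (vv 1) = false → bt E0 (v + T v).n = true) :
    ∃ i j k, ∀ v, T v = gb (vv 16 + T (vv 16)) (sm i (vv 32) + sm j (vv 64) + sm k (vv 128)) v := by
  generalize hw : vv 16 + T (vv 16) = w
  have wx : fb w (vv 1) = false := by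
    have := h.f (vv 16) (vv 1)
    rw [h0] at this
    rw [← hw, fb_add_left, this, Bool.xor_self]
  obtain ⟨θ, hθ⟩ : ∃ θ, θ = rho false (vv 1) w ∘ T := ⟨_, rfl⟩
  have i : Iso false θ := hθ ▸ (iso_rho rfl wx).comp h
  have e : ∀ v, T v = rho false (vv 1) w (θ v) := fun v => by
    rw [hθ, Function.comp, rho_rho wx wx, add_self, rho_zero]
  have t0 : θ (vv 1) = vv 1 := by rw [hθ, Function.comp, h0, rho_of_perp rfl, fb_comm, wx, sm_false, add_zero]
  have t1 : θ (vv 16) = vv 16 := by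
    have k := h.q (vv 16)
    rw [← add_add_self (vv 16) (T (vv 16)), hw, qb_add] at k
    have : ∀ w, fb w (vv 1) = false → (qb false (vv 16) ^^ qb false w ^^ fb (vv 16) w) = qb false (vv 16) →
      rho false (vv 1) w (vv 16 + w) = vv 16 := by decide +kernel
    rw [hθ, Function.comp, ← add_add_self (vv 16) (T (vv 16)), hw, this w wx k]
  have tE : ∀ v, fb v (vv 1) = false → bt E0 (v + θ v).n = true := fun v hv => by
    have k := h.f v (vv 1)
    rw [h0, hv] at k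
    rw [hθ, Function.comp, rho_of_perp k, ← add_assoc]
    refine sub_E0.add _ _ (hE v hv) ?_
    cases fb (T v) w <;> rfl
  have a0 : ∀ v, fb (vv 16) (v + θ v) = false := fun v => by
    have := i.f (vv 16) v
    rw [t1] at this
    rw [fb_add_right, this, Bool.xor_self]
  have a1 : ∀ v, fb v (vv 1) = false → fb v (v + θ v) = false := fun v hv => alt1 (E := fun v => bt E0 v.n = true) i E0_q (tE v hv)
  have a2 : ∀ u v, fb u (vv 1) = false → fb v (vv 1) = false → fb u (v + θ v) = fb v (u + θ u) := fun u v =>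
    alt2 (E := fun v => bt E0 v.n = true) i E0_q tE
  have a3 : ∀ v, fb v (vv 1) = false → θ v = v + (sm (fb (vv 32) (v + θ v)) (vv 2) + sm (fb (vv 64) (v + θ v)) (vv 4) +
      sm (fb (vv 128) (v + θ v)) (vv 8)) := fun v hv => by
    have := E0_eq _ (tE v hv)
    rw [a0, sm_false, zero_add] at this
    rw [← this, add_add_self]
  have a4 : ∀ v, bt E0 v.n = true → θ v = v := fun v hv => by
    have k := E0_f hv (u := v) (v := vv 1) rfl
    rw [a3 v k, a2 _ v rfl k, a2 _ v rfl k, a2 _ v rfl k, E0_f hv (tE _ rfl), E0_f hv (tE _ rfl), E0_f hv (tE _ rfl)]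
    exact add_zero v
  refine ⟨fb (vv 128) (vv 64 + θ (vv 64)), fb (vv 128) (vv 32 + θ (vv 32)), fb (vv 64) (vv 32 + θ (vv 32)), fun v => ?_⟩
  rw [e, gb, i.eq_lin v, t0, t1, a4 (vv 2) rfl, a4 (vv 4) rfl, a4 (vv 8) rfl]
  conv_lhs => rw [a3 (vv 32) rfl, a3 (vv 64) rfl, a3 (vv 128) rfl, a1 _ rfl, a1 _ rfl, a1 _ rfl, a2 (vv 32) (vv 64) rfl rfl,
    a2 (vv 32) (vv 128) rfl rfl, a2 (vv 64) (vv 128) rfl rfl]
  congr 1
  generalize fb (vv 128) (vv 64 + θ (vv 64)) = i
  generalize fb (vv 128) (vv 32 + θ (vv 32)) = j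
  generalize fb (vv 64) (vv 32 + θ (vv 32)) = k
  revert i j k v
  decide +kernel

variable {G : Type*} [Group G] [Finite G] {z a g s t : G} {τ : Bool} {π : G → V} {S T : V → V} {u v w : V}

namespace Co

theorem exists_gen (h : Co z false π) (p : Pt z t) (e : π t = vv 1) (hE : ∀ v, Et z π t v ↔ bt E0 v.n = true) {n : ℕ}
    (hn : n ∈ [32, 64, 128]) : ∃ b, ∃ k < 8, At z π t (mx (sg b n k)) := by
  have k1 : ∀ n ∈ [32, 64, 128], fb (vv n) (vv 1) = false := by decide +kernel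
  obtain ⟨T, c, k2⟩ := h.exists_at (u := vv 16) p (e ▸ k1 n hn) (e ▸ rfl)
  obtain ⟨i, j, k, k3⟩ := eq_gb (h.at_iso c) (e ▸ h.at_fix p c) fun v hv => (hE _).1 (h.at_et p c (e ▸ hv))
  have k4 := h.at_w (v := vv 16) p c (e ▸ rfl)
  rw [hE] at k2
  rw [k3, e] at k4
  generalize vv 16 + T (vv 16) = w at k2 k3 k4
  have : ∀ n ∈ [32, 64, 128], ∀ w : V, bt E0 (vv n + w).n = true → ∀ i j k,
    (gb w (sm i (vv 32) + sm j (vv 64) + sm k (vv 128)) w = w ∨ gb w (sm i (vv 32) + sm j (vv 64) + sm k (vv 128)) w = w + vv 1) →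
      mat (gb w (sm i (vv 32) + sm j (vv 64) + sm k (vv 128))) = sg (i || j || k) n (w.n / 2 % 8) := by decide +kernel
  refine ⟨i || j || k, w.n / 2 % 8, Nat.mod_lt _ (by decide), ?_⟩
  rw [← this n hn w k2 i j k k4, show mx (mat _) = T from funext fun v => (mx_mat (gb_add _ _) v).trans (k3 v).symm]
  exact c

theorem nf0 (h : Co z false π) (p : Pt z t) (e : π t = vv 1) (hE : ∀ v, Et z π t v ↔ bt E0 v.n = true) :
    ∃ b, ∃ c < 512, Pd z π t (stb b c) := by
  obtain ⟨b, i, hi, c1⟩ := h.exists_gen p e hE (n := 32) (by simp)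
  obtain ⟨b2, j, hj, c2⟩ := h.exists_gen p e hE (n := 64) (by simp)
  obtain ⟨b3, k, hk, c3⟩ := h.exists_gen p e hE (n := 128) (by simp)
  have key : ∀ n ∈ [64, 128], ∀ b b', ∀ i < 8, ∀ j < 8, (fun T : V → V => T (vv 16 + T (vv 16)) = vv 16 + T (vv 16) ∨
    T (vv 16 + T (vv 16)) = vv 16 + T (vv 16) + vv 1) (mx (sg b 32 i) ∘ mx (sg b' n j)) → b' = b := by decide +kernel
  obtain rfl := key 64 (by simp) _ _ i hi j hj (e ▸ h.at_w (v := vv 16) p (h.at_comp c1 c2) (e ▸ rfl))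
  obtain rfl := key 128 (by simp) _ _ i hi k hk (e ▸ h.at_w (v := vv 16) p (h.at_comp c1 c3) (e ▸ rfl))
  have e0 : stb b3 (i + 8 * j + 64 * k) = ⟨1, E0, sg b3 32 i, sg b3 64 j, sg b3 128 k⟩ := by
    rw [stb, show Nat.mod (i + 8 * j + 64 * k) 8 = i from (by omega : (i + 8 * j + 64 * k) % 8 = i),
      show Nat.mod (Nat.div (i + 8 * j + 64 * k) 8) 8 = j from (by omega : (i + 8 * j + 64 * k) / 8 % 8 = j),
      show Nat.mod (Nat.div (i + 8 * j + 64 * k) 64) 8 = k from (by omega : (i + 8 * j + 64 * k) / 64 % 8 = k)]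
  refine ⟨b3, i + 8 * j + 64 * k, by omega, ?_⟩
  rw [e0]
  have w1 : ∀ n ∈ [32, 64, 128], ∀ b, ∀ i < 8, bt E0 (vv n + (vv 16 + mx (sg b n i) (vv 16))).n = true := by decide +kernel
  have s := h.sub_et p
  let P : V → ℕ → Prop := fun v m => At z π t (mx m) ∧ Et z π t (v + (vv 16 + mx m (vv 16)))
  have P0 : P 0 W4.one := ⟨(funext mx_one : mx W4.one = id) ▸ h.at_id, by simpa [mx_one] using s.zero⟩
  have P1 : P (vv 32) _ := ⟨c1, (hE _).2 (w1 32 (by simp) _ i hi)⟩
  have P2 : P (vv 64) _ := ⟨c2, (hE _).2 (w1 64 (by simp) _ j hj)⟩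
  have P3 : P (vv 128) _ := ⟨c3, (hE _).2 (w1 128 (by simp) _ k hk)⟩
  have Pm : ∀ {u v m n}, P u m → P v n → P (u + v) (W4.mul m n) := fun {u v m n} a b =>
    ⟨(funext (mx_mul m n) : mx (W4.mul m n) = mx m ∘ mx n) ▸ h.at_comp a.1 b.1, by
      have := s.add _ _ (h.w_comp p a.1 b.1 (vv 16)) (s.add _ _ a.2 b.2)
      rwa [add_add_add_comm u, add_comm (u + v), ← add_assoc, add_add_self', add_comm _ (u + v), ← mx_mul] at this⟩
  have all : ∀ w, fb w (vv 1) = false → ∃ u ∈ [0, vv 32, vv 64, vv 32 + vv 64, vv 128, vv 32 + vv 128, vv 64 + vv 128,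
    vv 32 + vv 64 + vv 128], bt E0 (u + w).n = true := by decide +kernel
  refine ⟨p, e, hE, fun T => ⟨fun c => ?_, ?_⟩⟩
  · have fin : ∀ u m, P u m → bt E0 (u + (vv 16 + T (vv 16))).n = true → T = mx m := fun u m a b => by
      have d := s.add _ _ a.2 ((hE _).2 b)
      rw [add_add_add_comm, add_self, zero_add] at d
      have d1 := h.at_eq p (h.at_comp a.1 c) (v := vv 16) (e ▸ rfl)
        (by simpa only [add_add_self', Function.comp] using s.add _ _ (h.w_comp p a.1 c (vv 16)) d)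
      have d2 := h.at_eq p (h.at_comp a.1 a.1) (v := vv 16) (e ▸ rfl)
        (by simpa only [add_self, add_zero, Function.comp] using h.w_comp p a.1 a.1 (vv 16))
      exact funext fun v => (h.at_iso a.1).inj ((d1 v).trans (d2 v).symm)
    obtain ⟨u, h1, h2⟩ := all _ (e ▸ h.w_perp p c (vv 16))
    simp only [PD.els_eq, List.mem_cons, List.not_mem_nil, or_false, exists_eq_or_imp, exists_eq_left] at h1 ⊢
    rcases h1 with rfl | rfl | rfl | rfl | rfl | rfl | rfl | rfl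
    exacts [.inl (fin _ _ P0 h2), .inr (.inl (fin _ _ P1 h2)), .inr (.inr (.inl (fin _ _ P2 h2))),
      .inr (.inr (.inr (.inl (fin _ _ (Pm P1 P2) h2)))), .inr (.inr (.inr (.inr (.inl (fin _ _ P3 h2))))),
      .inr (.inr (.inr (.inr (.inr (.inl (fin _ _ (Pm P1 P3) h2)))))),
      .inr (.inr (.inr (.inr (.inr (.inr (.inl (fin _ _ (Pm P2 P3) h2))))))),
      .inr (.inr (.inr (.inr (.inr (.inr (.inr (fin _ _ (Pm (Pm P1 P2) P3) h2)))))))]
  · simp only [PD.els_eq, List.mem_cons, List.not_mem_nil, or_false]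
    rintro ⟨_, rfl | rfl | rfl | rfl | rfl | rfl | rfl | rfl, rfl⟩
    exacts [P0.1, P1.1, P2.1, (Pm P1 P2).1, P3.1, (Pm P1 P3).1, (Pm P2 P3).1, (Pm (Pm P1 P2) P3).1]

theorem et_iff (h : Co z false π) (p : Pt z t) (e : π t = vv 1) (h1 : Et z π t (vv 2)) (h2 : Et z π t (vv 4))
    (h3 : Et z π t (vv 8)) (v : V) : Et z π t v ↔ bt E0 v.n = true := by
  have s := h.sub_et p
  refine ⟨fun k => E0_of_perp v (e ▸ h.et_f p k s.self) (h.et_f p k h1) (h.et_f p k h2) (h.et_f p k h3), fun k => ?_⟩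
  have : ∀ v : V, bt E0 v.n = true → v ∈ els (vv 1) [vv 2, vv 4, vv 8] := by decide +kernel
  exact s.els (by simp [h1, h2, h3]) v (e ▸ this v k)

/-- The normal form. -/
theorem nf (h : Co z τ π) (p : Pt z t) {a b c : V} (i : Ind (π t) [a, b, c]) (h1 : Et z π t a) (h2 : Et z π t b)
    (h3 : Et z π t c) : τ = false ∧ ∃ σ, Iso false σ ∧ ∃ b, ∃ c < 512, Pd z (σ ∘ π) t (stb b c) := by
  have k : ∀ v ∈ els (π t) [a, b, c], qb τ v = false := fun v hv => h.et_q p ((h.sub_et p).els (by simp [h1, h2, h3]) v hv)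
  cases τ
  swap
  · exact (no_ts4 i k).elim
  obtain ⟨f0, f1, f2, f3, e⟩ := exists_hyp i k
  obtain ⟨σ, j, -, e'⟩ := Iso.exists_inv (τ := false) ⟨lin_add _ _ _ _ _ _ _ _, e⟩
  obtain ⟨b0, b1, b2, b3⟩ := lin_basis (π t) a b c f0 f1 f2 f3
  have e0 : (σ ∘ π) t = vv 1 := by rw [Function.comp, ← b0, e']
  refine ⟨rfl, σ, j, (h.comp j).nf0 p e0 ((h.comp j).et_iff p e0 ?_ ?_ ?_)⟩
  · rwa [← e' (vv 2), et_comp j, b1]
  · rwa [← e' (vv 4), et_comp j, b2]
  · rwa [← e' (vv 8), et_comp j, b3]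

end Co

end Cfsg.Agent.W4
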