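import Mathlib
import Cfsg.Agent.W4.Nf

/-! Certificates for systems of points: refutation and embedding. -/

set_option autoImplicit false
set_option maxRecDepth 100000
set_option linter.unusedSectionVars false
set_option linter.unusedVariables false

namespace Cfsg.Agent.W4

open Cfsg.Agent.Spor Cfsg.Agent.Spor.TT Cfsg.Agent.LX Cfsg.Agent.Gr6 Cfsg.Agent.W3 Subgroup

/-- Entry `i` of a list. -/
def nth {α : Type} (d : α) (l : List α) (i : ℕ) : α :=
  List.rec (motive := fun _ => ℕ → α) (fun _ => d) (fun a _ ih i => Nat.rec a (fun i _ => ih i) i) l i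

theorem nth_eq {α : Type} (d : α) (l : List α) (i : ℕ) : nth d l i = l.getD i d := by
  induction l generalizing i with
  | nil => rfl
  | cons a l ih => cases i; exacts [rfl, ih _]

theorem nth_map {α β : Type} (f : α → β) (d : α) (l : List α) (i : ℕ) : nth (f d) (l.map f) i = f (nth d l i) := by
  simp only [nth_eq, List.getD_map]

theorem nth_range {α : Type} (f : ℕ → α) (d : α) {n i : ℕ} (h : i < n) : nth d ((List.range n).map f) i = f i := by
  simp [nth_eq, h]

/-- Apply the word `w` of length `n` to three vectors. -/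
def go (Ts : List ℕ) (k : ℕ → ℕ → ℕ → Bool) (n : ℕ) : ℕ → ℕ → ℕ → ℕ → Bool :=
  Nat.rec (fun _ => k) (fun _ ih w p u u' => frc (nth 0 Ts (Nat.mod w 16)) fun t => frc (ap t p) fun p => frc (ap t u) fun u =>
    frc (ap t u') fun u' => frc (Nat.div w 16) fun w => ih w p u u') n

/-- `u'` is not in the orbit of `u`. -/
def no (a b c u u' : ℕ) : Bool := frc (ap c u) fun cu => frc (ap b u) fun bu => frc (ap b cu) fun bc =>
  !(Nat.beq u u' || Nat.beq (ap a u) u' || Nat.beq bu u' || Nat.beq (ap a bu) u' || Nat.beq cu u' ||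
    Nat.beq (ap a cu) u' || Nat.beq bc u' || Nat.beq (ap a bc) u')

/-- A dummy. -/
def d0 : PD := ⟨0, 0, one, one, one⟩

/-- The check of a refutation `c` of the system `L`, whose generators have the tables `Ts`. -/
def kl (Ts : List ℕ) (L : List PD) (c : ℕ) : Bool :=
  frc (Nat.mod c 16) fun l => frc (Nat.mod (Nat.div c 16) 256) fun v => frc (Nat.mod (Nat.div c 4096) 16) fun n =>
    frc (Nat.div c 65536) fun w => cond (Nat.ble l 8)
      (Nat.ble (Nat.succ (Nat.div l 3)) L.length && go Ts (fun p u u' => Nat.beq p (vv (nth d0 L 0).x).n &&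
        no (nth 0 Ts 0) (nth 0 Ts 1) (nth 0 Ts 2) u u') n w (vv (nth d0 L (Nat.div l 3)).x).n v (ap (nth 0 Ts l) v))
      (Nat.ble (Nat.succ (Nat.sub 15 l)) L.length && go Ts (fun p u _ => Nat.beq p (vv (nth d0 L (Nat.sub 15 l)).x).n &&
        frc (nth d0 L (Nat.sub 15 l)).E fun E => bt E v && !bt E u) n w (vv (nth d0 L (Nat.sub 15 l)).x).n v v)

/-- The characteristic function of a preimage. -/
def pull (t E : ℕ) : ℕ := Nat.rec 0 (fun v ih => Nat.lor (cond (bt E (ap t v)) (Nat.shiftLeft 1 v) 0) ih) 256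

theorem bt_pull (m E : ℕ) (v : V) : bt (pull (tb m) E) v.n = bt E (mx m v).n := by
  have k : ∀ n i, bt (Nat.rec 0 (fun v ih => Nat.lor (cond (bt E (ap (tb m) v)) (Nat.shiftLeft 1 v) 0) ih) n : ℕ) i =
      (decide (i < n) && bt E (ap (tb m) i)) := by
    intro n i
    induction n with
    | zero => simp [bt_eq]
    | succ n ih =>
      rw [bt_eq] at ih ⊢
      change ((cond (bt E (ap (tb m) n)) (1 <<< n) 0) ||| _).testBit i = _
      rw [Nat.testBit_or, ih]
      rcases lt_trichotomy i n with e | rfl | e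
      · cases bt E (ap (tb m) n) <;> simp [Nat.one_shiftLeft, e, e.ne', e.le]
      · cases bt E (ap (tb m) i) <;> simp [Nat.one_shiftLeft]
      · cases bt E (ap (tb m) n) <;> simp [Nat.one_shiftLeft, e.ne, e.not_ge, e.not_gt]
  rw [pull, k, ap_tb, decide_eq_true v.lt, Bool.true_and]

/-- The data in the old coordinates; `H` is the inverse of `P`. -/
def bk (H P : ℕ) (d : PD) : PD :=
  ⟨(mx H (vv d.x)).n, frc (tb P) fun t => frc d.E fun E => pull t E, mul H (mul d.a P), mul H (mul d.b P), mul H (mul d.c P)⟩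

/-- The check of an embedding of the system `L'` into the system generated by `L`. -/
def em (L : List PD) (σ : ℕ) (ws : List (ℕ × List ℕ)) (L' : List PD) : Bool :=
  isoB false σ && allL (fun d => anyL (fun p => Nat.ble (Nat.succ p.1) L.length &&
    trB (mul σ (wm (gn L) p.2)) (nth d0 L p.1) d) ws) L'

variable {G : Type*} [Group G] [Finite G] {z a g s t : G} {τ : Bool} {π π' : G → V} {T σ : V → V} {d d' : PD} {m O : ℕ}
  {L L' : List PD}

theorem go_spec (h : Co z τ π) {Ts : List ℕ} (hT : ∀ i, nth 0 Ts i = 0 ∨ ∃ m, Rl z π m ∧ nth 0 Ts i = tb m)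
    {k : ℕ → ℕ → ℕ → Bool} (hk : ∀ u u', k 0 u u' = false) {n w : ℕ} {p u u' : V} (e : go Ts k n w p.n u.n u'.n = true) :
    ∃ g T, Ac z π g T ∧ k (T p).n (T u).n (T u').n = true := by
  induction n generalizing w p u u' with
  | zero => exact ⟨1, id, h.ac_mem (one_mem _), e⟩
  | succ n ih =>
    have e' : go Ts k n (w.div 16) (ap (nth 0 Ts (w.mod 16)) p.n) (ap (nth 0 Ts (w.mod 16)) u.n)
      (ap (nth 0 Ts (w.mod 16)) u'.n) = true := by simpa only [go, frc_eq] using e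
    rcases hT (w.mod 16) with c | ⟨m, ⟨r, c⟩, c'⟩
    · rw [c, show ∀ i, ap 0 i = (0 : V).n from fun i => by simp [ap]; rfl, show ∀ i, ap 0 i = (0 : V).n from fun i => by
        simp [ap]; rfl, show ∀ i, ap 0 i = (0 : V).n from fun i => by simp [ap]; rfl] at e'
      obtain ⟨g, T, c1, c2⟩ := ih e'
      rw [(h.iso c1).zero] at c2
      exact absurd ((hk _ _).symm.trans c2) Bool.false_ne_true
    · rw [c', ap_tb, ap_tb, ap_tb] at e'
      obtain ⟨g, T, c1, c2⟩ := ih e'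
      exact ⟨_, _, h.ac_mul c1 c, c2⟩

theorem nth_mem {α : Type} {d : α} {l : List α} {i : ℕ} (h : Nat.ble (Nat.succ i) l.length = true) : nth d l i ∈ l := by
  rw [nth_eq, List.getD_eq_getElem _ _ (Nat.le_of_ble_eq_true h)]
  exact List.getElem_mem _

theorem gn_eq (L : List PD) (r : ℕ) : gn L (3 * r) = (nth d0 L r).a ∧ gn L (3 * r + 1) = (nth d0 L r).b ∧
    gn L (3 * r + 2) = (nth d0 L r).c := by
  induction L generalizing r with
  | nil => exact ⟨rfl, rfl, rfl⟩
  | cons d L ih => cases r; exacts [⟨rfl, rfl, rfl⟩, ih _]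

theorem gn_mem (L : List PD) (l : ℕ) : gn L l ∈ (nth d0 L (l / 3)).els := by
  obtain ⟨h1, h2, h3⟩ := gn_eq L (l / 3)
  rw [PD.els_eq]
  rcases (by omega : l = 3 * (l / 3) ∨ l = 3 * (l / 3) + 1 ∨ l = 3 * (l / 3) + 2) with e | e | e
  · rw [← e] at h1; simp [h1]
  · rw [← e] at h2; simp [h2]
  · rw [← e] at h3; simp [h3]

theorem kill (h : Co z τ π) (hL : ∀ d ∈ L, ∃ t, Pd z π t d) {Ts : List ℕ}
    (hT : Ts = (L.flatMap fun d => [d.a, d.b, d.c]).map tb) {c : ℕ} (e : kl Ts L c = true) : False := by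
  have h1 : ∀ i, i < 3 * L.length → nth 0 Ts i = tb (gn L i) := fun i hi => by
    have : i < (L.flatMap fun d => [d.a, d.b, d.c]).length := by simp [List.length_flatMap]; omega
    rw [hT, nth_eq, gn, List.getD_eq_getElem _ _ this, List.getD_eq_getElem _ _ (by rwa [List.length_map]), List.getElem_map]
  have h2 : ∀ i, nth 0 Ts i = 0 ∨ ∃ m, Rl z π m ∧ nth 0 Ts i = tb m := fun i => by
    by_cases k : i < 3 * L.length
    · exact .inr ⟨_, rl_gn h hL i, h1 i k⟩
    · exact .inl (by rw [nth_eq, List.getD_eq_default]; simp [hT, List.length_flatMap]; omega)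
  have h3 : ∀ {t d}, Pd z π t d → Nat.beq 0 (vv d.x).n = false := fun p => by
    rw [← Bool.not_eq_true, Nat.beq_eq]
    exact fun e => h.pt_ne p.pt (p.eq.trans (V.ext e.symm))
  simp only [kl, frc_eq] at e
  generalize Nat.mod c 16 = l at e
  obtain ⟨v, hv⟩ : ∃ v : V, Nat.mod (Nat.div c 16) 256 = v.n := ⟨vv _, rfl⟩
  rw [hv] at e
  cases k : Nat.ble l 8 <;> rw [k] at e <;> simp only [cond_true, cond_false, Bool.and_eq_true] at e
  · obtain ⟨s, p⟩ := hL _ (nth_mem (d := d0) e.1)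
    obtain ⟨g, T, c1, c2⟩ := go_spec h h2 (fun _ _ => by rw [h3 p]; rfl) e.2
    simp only [Bool.and_eq_true, Nat.beq_eq, Bool.not_eq_true'] at c2
    have := (p.of_eq h (h.cj_mem c1 p.pt.mem) (by rw [c1.2 _ p.pt.mem, p.eq, V.ext c2.1])).et (T v)
    rw [h.et_cj c1, p.et, c2.2.1, c2.2.2] at this
    simp at this
  · have k1 := Nat.le_of_ble_eq_true e.1
    have k2 : l / 3 + 1 ≤ L.length := k1
    obtain ⟨s, p⟩ := hL _ (nth_mem (d := d0) e.1)
    obtain ⟨t, p0⟩ := hL _ (nth_mem (d := d0) (i := 0) (Nat.ble_eq_true_of_le (by omega)))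
    rw [h1 l (by omega), ap_tb] at e
    obtain ⟨g, T, c1, c2⟩ := go_spec h h2 (fun _ _ => by rw [h3 p0]; rfl) e.2
    obtain ⟨b1, b2, b3⟩ := gn_eq L 0
    rw [h1 0 (by omega), h1 1 (by omega), h1 2 (by omega), b1, b2, b3] at c2
    simp only [no, frc_eq, ap_tb, Bool.and_eq_true, Nat.beq_eq, Bool.not_eq_true', ← Bool.not_eq_true,
      ← V.ext_iff] at c2
    obtain ⟨i, -, i1, i2⟩ := (h.iso c1).exists_inv
    obtain ⟨m, h4, h5⟩ := ((p0.of_eq h (h.cj_mem c1 p.pt.mem) (by rw [c1.2 _ p.pt.mem, p.eq, p0.eq, ← c2.1])).at'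
      fun u => T (mx (gn L l) (i u))).1 (h.at_cj c1 ((p.at' _).2 ⟨_, gn_mem L l, rfl⟩) fun u => by rw [i2])
    have h6 := congrFun h5 (T v)
    simp only [i2] at h6
    rw [h6] at c2
    simp only [PD.els_eq, List.mem_cons, List.not_mem_nil, or_false] at h4
    rcases h4 with rfl | rfl | rfl | rfl | rfl | rfl | rfl | rfl <;> simp [mx_mul, mx_one] at c2

theorem Pd.shift (p : Pd z π t d) (h : Co z τ π') (hg : Commute z g) (e : ∀ x ∈ QQ z, π x = π' (TT.cj g x)) :
    Pd z π' (TT.cj g t) d := by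
  have k : ∀ a T, Ac z π' (TT.cj g a) T ↔ Ac z π a T := fun a T =>
    ⟨fun c => ⟨by simpa [cj_inv_cj] using commute_cj hg.inv_right c.1, fun x hx => by
      have ha : Commute z a := by simpa [cj_inv_cj] using commute_cj hg.inv_right c.1
      rw [e _ (h.bg.cj_mem ha hx), cj_dist, c.2 _ (h.bg.cj_mem hg hx), e x hx]⟩,
    fun c => ⟨commute_cj hg c.1, fun x hx => by
      have hy := h.bg.cj_mem hg.inv_right hx
      rw [← cj_cj_inv g x, ← cj_dist, ← e _ (h.bg.cj_mem c.1 hy), ← e _ hy, c.2 _ hy]⟩⟩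
  refine ⟨p.pt.cj h.bg hg, (e t p.pt.mem).symm.trans p.eq, fun v => Iff.trans ?_ (p.et v), fun T => Iff.trans ?_ (p.at' T)⟩
  · exact ⟨fun ⟨x, h1, h2, h3⟩ => ⟨_, h.bg.cj_mem hg.inv_right h1, mem_QQ_cj.1 h2, by
      rw [e _ (h.bg.cj_mem hg.inv_right h1), cj_cj_inv, h3]⟩, fun ⟨x, h1, h2, h3⟩ =>
      ⟨_, h.bg.cj_mem hg h1, cj_mem_QQ.2 h2, (e x h1).symm.trans h3⟩⟩
  · exact ⟨fun ⟨a, h1, h2⟩ => ⟨_, mem_QQ_cj.1 h1, (k _ T).1 (by rwa [cj_cj_inv])⟩,
      fun ⟨a, h1, h2⟩ => ⟨_, cj_mem_QQ.2 h1, (k a T).2 h2⟩⟩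

theorem Sy.emb (h : Sy z π t L) {σ : ℕ} {ws : List (ℕ × List ℕ)} (e : em L σ ws L' = true) :
    Iso false (mx σ) ∧ Sy z (mx σ ∘ π) t L' := by
  simp only [em, Bool.and_eq_true, allL_iff, anyL_iff] at e
  have i := iso_mx e.1
  refine ⟨i, h.co.comp i, fun d hd => ?_⟩
  obtain ⟨w, -, h1, h2⟩ := e.2 d hd
  obtain ⟨g, hg, p⟩ := h.base _ (nth_mem (d := d0) h1)
  obtain ⟨r, c⟩ := h.rl w.2
  refine ⟨r * g, c.1.mul_right hg, ?_⟩
  rw [← cj_cj]
  exact (p.comp (τ := false) ((funext (mx_mul _ _) : mx _ = mx σ ∘ mx _) ▸ i.comp (h.co.iso c)) h2).shift (h.co.comp i) c.1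
    fun x hx => by rw [Function.comp, Function.comp, mx_mul, c.2 x hx]

theorem Pd.back {H P : ℕ} (p : Pd z (mx P ∘ π) t d) (i : Iso τ (mx P)) (e : mul H P = one) : Pd z π t (bk H P d) := by
  have e1 : ∀ v, mx H (mx P v) = v := fun v => by rw [← mx_mul, e, mx_one]
  have e2 : ∀ v, mx P (mx H v) = v := fun v => by obtain ⟨v, rfl⟩ := i.surj v; rw [e1]
  refine ⟨p.pt, by rw [bk, vv_n, ← p.eq, Function.comp, e1], fun v => ?_, fun T => ?_⟩
  · rw [← Co.et_comp i, p.et, bk, frc_eq, frc_eq, bt_pull]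
  · rw [← Co.at_comp_iff (T := fun v => mx P (T (mx H v))) i fun v => by rw [e1], p.at']
    have k : ∀ S : V → V, (fun v => mx P (T (mx H v))) = S ↔ T = fun v => mx H (S (mx P v)) := fun S =>
      ⟨fun c => funext fun v => by rw [← c]; simp only [e1], fun c => funext fun v => by rw [c]; simp only [e2]⟩
    simp only [k, PD.els_eq, bk, List.mem_cons, List.not_mem_nil, or_false, exists_eq_or_imp, exists_eq_left, funext_iff,
      mx_mul, mx_one, e1, e2]

end Cfsg.Agent.W4
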