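import Mathlib
import Cfsg.Agent.W4.ClsK

/-! Types of points, and the position of a second point. -/

set_option autoImplicit false
set_option maxRecDepth 100000
set_option linter.unusedSectionVars false
set_option linter.unusedVariables false

namespace Cfsg.Agent.W4

open Cfsg.Agent.Spor Cfsg.Agent.Spor.TT Cfsg.Agent.LX Cfsg.Agent.Gr6 Cfsg.Agent.W3 Subgroup

variable {G : Type*} [Group G] [Finite G] {z a g s t : G} {τ : Bool} {π π' : G → V} {T σ : V → V} {d d' : PD}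
  {k k' m O : ℕ} {L L' : List PD}

theorem rep_x (hk : k < 10) : (rep k).x = 1 ∧ (rep k).E = E0 := by
  have := allN_iff.1 xe_ok k hk
  simp only [Bool.and_eq_true, Nat.beq_eq] at this
  exact this.1

theorem Pd.norm {b : Bool} {c : ℕ} (p : Pd z π t (stb b c)) (hc : c < 512) :
    ty b c < 10 ∧ Iso false (mx (nmx b c)) ∧ Pd z (mx (nmx b c) ∘ π) t (rep (ty b c)) := by
  have := allN_iff.1 (nm_ok b) c hc
  simp only [frc_eq, Bool.and_eq_true, Nat.ble_eq] at this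
  exact ⟨Nat.lt_succ_of_le this.1.1, iso_mx this.1.2, p.comp (iso_mx this.1.2) this.2⟩

/-- The type is an invariant. -/
theorem Pd.ty_eq (p : Pd z π t (rep k)) (h : Co z false π) (c : Ac z π g T) (i : Iso false σ)
    (p' : Pd z (σ ∘ π) (TT.cj g t) (rep k')) (hk : k < 10) (hk' : k' < 10) : k = k' := by
  have f : ∀ k < 10, ∀ i < 8, (∀ j < 8, mul (xe k i) (xe k j) = xe k (i ^^^ j)) ∧ (i = 0 ∨ mx (xe k i) (vv 16) ≠ vv 16) ∧
      (bt (chi k) i = true ↔ ∀ v, fb v (mx (xe k i) v) = false) := fun k hk i hi => by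
    have := allN_iff.1 xe_ok k hk
    simp only [frcL_eq, frc_eq, Bool.and_eq_true, allN_iff, Nat.beq_eq, Bool.or_eq_true, bne_iff_ne, beq_iff_eq] at this
    obtain ⟨⟨h1, h2⟩, h3⟩ := this.2 i hi
    refine ⟨h1, h2, ?_⟩
    rw [h3, allN_iff]
    exact ⟨fun e v => by simpa only [xe, vv_n, vv_ap_tb, Bool.not_eq_true'] using e _ v.lt,
      fun e v hv => by rw [ap_tb' _ hv, vv_n, ← xe, e]; rfl⟩
  have φ := i.comp (h.iso c)
  obtain ⟨s, -, s1, s2⟩ := φ.exists_inv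
  obtain ⟨r, -, r1, r2⟩ := i.exists_inv
  let P : ℕ → ℕ → Prop := fun i j => i < 8 ∧ j < 8 ∧ ∀ v, (σ ∘ T) (mx (xe k i) v) = mx (xe k' j) ((σ ∘ T) v)
  have P1 : ∀ n < 8, ∃ j, P n j := fun n hn => by
    obtain ⟨m, hm, e⟩ := (p'.at' fun v => (σ ∘ T) (mx (xe k n) (s v))).1 ((Co.at_comp_iff
      (S := fun v => T (mx (xe k n) (s (σ v)))) i fun v => rfl).2 (h.at_cj c ((p.at' _).2 ⟨xe k n,
        nth_mem (Nat.ble_eq_true_of_le (by rw [PD.els_eq]; exact hn)), rfl⟩) fun v => by rw [show s (σ (T v)) = v from s2 v]))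
    obtain ⟨j, hj, rfl⟩ := List.getElem_of_mem hm
    exact ⟨j, hn, by simpa [PD.els_eq] using hj, fun v => by
      rw [xe, xe, nth_eq _ _ j, List.getD_eq_getElem _ _ hj, ← e]; simp only [s2]; rfl⟩
  have P2 : ∀ {i j i' j'}, P i j → P i' j' → P (i ^^^ i') (j ^^^ j') := fun a b =>
    ⟨Nat.xor_lt_two_pow (n := 3) a.1 b.1, Nat.xor_lt_two_pow (n := 3) a.2.1 b.2.1, fun v => by
      rw [← (f k hk _ a.1).1 _ b.1, ← (f k' hk' _ a.2.1).1 _ b.2.1, mx_mul, mx_mul, a.2.2, b.2.2]⟩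
  have P3 : ∀ {i j}, P i j → i ≠ 0 → (bt (chi k) i == bt (chi k') j && !Nat.beq j 0) = true := fun {i j} a i0 => by
    rw [Bool.and_eq_true, beq_iff_eq, Bool.eq_iff_iff, (f k hk _ a.1).2.2, (f k' hk' _ a.2.1).2.2, Bool.not_eq_true',
      ← Bool.not_eq_true, Nat.beq_eq]
    refine ⟨⟨fun e v => by rw [← s1 v, ← a.2.2, φ.f, e], fun e v => by rw [← φ.f, a.2.2, e]⟩, fun e => ?_⟩
    refine (f k hk _ a.1).2.1.resolve_left i0 (φ.inj ?_)
    rw [a.2.2, e, xe, PD.els_eq]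
    exact mx_one _
  obtain ⟨a, ha⟩ := P1 1 (by decide)
  obtain ⟨b, hb⟩ := P1 2 (by decide)
  obtain ⟨c, hc⟩ := P1 4 (by decide)
  have := allN_iff.1 (allN_iff.1 chi_ok k hk) k' hk'
  simp only [Bool.or_eq_true, Nat.beq_eq, allN_iff, Bool.not_eq_true', ← Bool.not_eq_true] at this
  refine this.resolve_right fun e => e a ha.2.1 b hb.2.1 c hc.2.1 (allL_iff.2 ?_)
  simp only [List.mem_cons, List.not_mem_nil, or_false, forall_eq_or_imp, forall_eq]
  exact ⟨P3 ha (by decide), P3 hb (by decide), P3 hc (by decide), P3 (P2 ha hb) (by decide), P3 (P2 ha hc) (by decide),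
    P3 (P2 hb hc) (by decide), P3 (P2 (P2 ha hb) hc) (by decide)⟩

theorem gm_spec (hk : k < 10) {y : V} (h1 : qb false y = false) (h2 : fb y (vv 1) = true) :
    Iso false (mx (gm k y.n)) ∧ trB (gm k y.n) (rep k) (rep k) = true ∧ mx (gm k y.n) y = vv 16 ∧
      mul (gm k y.n) (gm k y.n) = one := by
  have := allN_iff.1 (allN_iff.1 gm_ok k hk) _ y.lt
  simp only [vv_n, h1, h2, frc_eq, Bool.not_true, Bool.false_or, Bool.and_eq_true, beq_iff_eq, Nat.beq_eq] at this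
  exact ⟨iso_mx this.1.1.1, this.1.1.2, this.1.2, this.2⟩

theorem exists_j {u v w : V} (hu : qb false u = false) (hv : qb false v = false) (hw : qb false w = false)
    (u0 : fb u (vv 16) = false) (v0 : fb v (vv 16) = false) (w0 : fb w (vv 16) = false) (uv : fb u v = false)
    (uw : fb u w = false) (vw : fb v w = false) : ∃ j < 30, Iso false (mx (jm j)) ∧ mul (hm j) (jm j) = one ∧
      mx (jm j) (vv 16) = vv 1 ∧ ∀ x ∈ [u, v, w], bt E0 (mx (jm j) x).n = true := by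
  obtain ⟨a, ha, a1⟩ := sl_ok.1 u hu u0
  obtain ⟨b, hb, b1⟩ := sl_ok.1 v hv v0
  obtain ⟨c, hc, c1⟩ := sl_ok.1 w hw w0
  have := allL_iff.1 (allL_iff.1 sl_ok.2 a ha) b hb
  simp only [a1, b1, vv_n, uv, Bool.false_or, frc_eq] at this
  have := allL_iff.1 this c hc
  simp only [c1, vv_n, uw, vw, Bool.or_false, Bool.not_eq_true', ← Bool.not_eq_true, Nat.beq_eq] at this
  obtain ⟨j, hj⟩ := Nat.exists_testBit_of_ne_zero this
  change ((a.2 &&& b.2 &&& c.2) % 2 ^ 30).testBit j = true at hj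
  simp only [Nat.testBit_mod_two_pow, Nat.testBit_and, Bool.and_eq_true, decide_eq_true_eq] at hj
  simp only [← bt_eq] at hj
  have k := allN_iff.1 hj_ok j hj.1
  simp only [Bool.and_eq_true, Nat.beq_eq, beq_iff_eq, frc_eq, allL_iff, Bool.or_eq_true, Bool.not_eq_true'] at k
  refine ⟨j, hj.1, iso_mx k.1.1.1, k.1.1.2, k.1.2, ?_⟩
  simp only [List.mem_cons, List.not_mem_nil, or_false, forall_eq_or_imp, forall_eq, ← ap_tb, ← a1, ← b1, ← c1]
  exact ⟨(k.2 a ha).resolve_left (by simp [hj.2.1.1]), (k.2 b hb).resolve_left (by simp [hj.2.1.2]),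
    (k.2 c hc).resolve_left (by simp [hj.2.2])⟩

/-- A second point over `f0`. -/
theorem Pd.pair0 (p : Pd z π t (rep k)) (h : Co z false π) (hk : k < 10) (hg : Commute z g)
    (e : π (TT.cj g t) = vv 16) :
    ∃ j < 30, ∃ b, ∃ c < 512, ty b c = k ∧ Pd z π (TT.cj g t) (bk (hm j) (jm j) (stb b c)) := by
  obtain ⟨T, c⟩ := h.exists_ac hg
  have i := h.iso c
  have e0 : T (vv 1) = vv 16 := by rw [← e, c.2 t p.pt.mem, p.eq, (rep_x hk).1]
  obtain ⟨j, hj, j1, j2, j3, j4⟩ := exists_j (u := T (vv 2)) (v := T (vv 4)) (w := T (vv 8)) (i.q _) (i.q _) (i.q _)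
    (e0 ▸ i.f _ _) (e0 ▸ i.f _ _) (e0 ▸ i.f _ _) (i.f _ _) (i.f _ _) (i.f _ _)
  simp only [List.mem_cons, List.not_mem_nil, or_false, forall_eq_or_imp, forall_eq] at j4
  have φ := j1.comp i
  have k1 : bt E0 (mx (jm j) (T (vv 1))).n = true := by rw [e0, j3]; rfl
  have k2 : ∀ (b : Bool) (v : V), bt E0 v.n = true → bt E0 (sm b v).n = true := fun b v e => by cases b; exacts [sub_E0.zero, e]
  obtain ⟨b, n, hn, p'⟩ := (h.comp j1).nf0 (p.pt.cj h.bg hg) (by rw [Function.comp, e, j3]) fun v => by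
    obtain ⟨v, rfl⟩ := φ.surj v
    rw [Function.comp, Co.et_comp j1, h.et_cj c, p.et, (rep_x hk).2]
    refine ⟨fun e => ?_, fun e => E0_of_perp v ?_ ?_ ?_ ?_⟩
    · rw [E0_eq v e]
      simp only [i.add, i.sm, j1.add, j1.sm]
      exact sub_E0.add _ _ (sub_E0.add _ _ (sub_E0.add _ _ (k2 _ _ k1) (k2 _ _ j4.1)) (k2 _ _ j4.2.1)) (k2 _ _ j4.2.2)
    exacts [(φ.f _ _).symm.trans (E0_f e k1), (φ.f _ _).symm.trans (E0_f e j4.1), (φ.f _ _).symm.trans (E0_f e j4.2.1),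
      (φ.f _ _).symm.trans (E0_f e j4.2.2)]
  obtain ⟨n1, n2, n3⟩ := p'.norm hn
  exact ⟨j, hj, b, n, hn, (p.ty_eq h c (n2.comp j1) n3 hk n1).symm, p'.back j1 j2⟩

end Cfsg.Agent.W4
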